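import Mathlib

/-!
Matrices of order seven and thirteen in dimension six over the field with three elements.
-/

set_option autoImplicit false

namespace CfsgLib.PrimeGraphSp63.Six

open Polynomial Matrix

universe u

variable {F : Type u} [Field F] {n : Type*} [Fintype n] [DecidableEq n]

theorem intertwine (P : F[X]) {A B X : Matrix n n F} (h : A * X = X * B) :
    aeval A P * X = X * aeval B P := by
  induction P using Polynomial.induction_on' with
  | add p q hp hq => rw [map_add, map_add, add_mul, mul_add, hp, hq]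
  | monomial k c =>
    have hk : A ^ k * X = X * B ^ k := by
      induction k with
      | zero => simp
      | succ k ih => rw [pow_succ, pow_succ, mul_assoc, h, ← mul_assoc, ih, mul_assoc]
    rw [aeval_monomial, aeval_monomial, ← Algebra.smul_def, ← Algebra.smul_def, smul_mul_assoc,
      mul_smul_comm, hk]

theorem aeval_transpose (P : F[X]) (A : Matrix n n F) : aeval Aᵀ P = (aeval A P)ᵀ := by
  induction P using Polynomial.induction_on' with
  | add p q hp hq => rw [map_add, map_add, hp, hq, transpose_add]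
  | monomial k c =>
    rw [aeval_monomial, aeval_monomial, ← Algebra.smul_def, ← Algebra.smul_def, transpose_smul,
      transpose_pow]

theorem aeval_mulVec_mul (M : Matrix n n F) (P Q : F[X]) (v : n → F) :
    aeval M (P * Q) *ᵥ v = aeval M P *ᵥ (aeval M Q *ᵥ v) := by
  rw [map_mul, Matrix.mulVec_mulVec]

/-- a vector killed by two coprime polynomials is zero -/
theorem eq_zero_of_coprime (M : Matrix n n F) {P Q : F[X]} (h : IsCoprime P Q) {v : n → F}
    (hP : aeval M P *ᵥ v = 0) (hQ : aeval M Q *ᵥ v = 0) : v = 0 := by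
  obtain ⟨a, b, hab⟩ := h
  have := congrArg (fun R => aeval M R *ᵥ v) hab
  simpa [Matrix.add_mulVec, aeval_mulVec_mul, hP, hQ, -map_mul] using this.symm

/-- with a cyclic vector the commutant consists of polynomials -/
theorem commutant (M : Matrix n n F) (v : n → F) (hdeg : (minpoly F M).natDegree = Fintype.card n)
    (hv : ∀ P : F[X], aeval M P *ᵥ v = 0 → minpoly F M ∣ P) {B : Matrix n n F} (hB : Commute B M) :
    ∃ P : F[X], B = aeval M P := by
  let L : Polynomial.degreeLT F (Fintype.card n) →ₗ[F] (n → F) :=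
    { toFun := fun P => aeval M (P : F[X]) *ᵥ v
      map_add' := fun P Q => by simp [Matrix.add_mulVec]
      map_smul' := fun c P => by simp [Matrix.smul_mulVec] }
  have hinj : Function.Injective L := by
    rw [injective_iff_map_eq_zero]
    intro P hP
    by_contra hP0
    have h0 : (P : F[X]) ≠ 0 := fun e => hP0 (Subtype.ext e)
    have h1 := natDegree_le_of_dvd (hv _ hP) h0
    have h2 := (natDegree_lt_iff_degree_lt h0).2 (mem_degreeLT.1 P.2)
    omega
  have hfin : Module.finrank F (Polynomial.degreeLT F (Fintype.card n)) = Module.finrank F (n → F) := by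
    rw [Module.finrank_fintype_fun_eq_card, (Polynomial.degreeLTEquiv F _).finrank_eq,
      Module.finrank_fin_fun]
  haveI : Module.Finite F (Polynomial.degreeLT F (Fintype.card n)) :=
    Module.Finite.equiv (Polynomial.degreeLTEquiv F _).symm
  have hsur := (LinearMap.injective_iff_surjective_of_finrank_eq_finrank hfin).1 hinj
  obtain ⟨P, hP⟩ := hsur (B *ᵥ v)
  refine ⟨P, Matrix.ext_of_mulVec_single fun i => ?_⟩
  obtain ⟨Q, hQ⟩ := hsur (Pi.single i 1)
  rw [← hQ]
  show B *ᵥ (aeval M (Q : F[X]) *ᵥ v) = aeval M (P : F[X]) *ᵥ (aeval M (Q : F[X]) *ᵥ v)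
  rw [← aeval_mulVec_mul, mul_comm, aeval_mulVec_mul, show aeval M (P : F[X]) *ᵥ v = B *ᵥ v from hP,
    Matrix.mulVec_mulVec, Matrix.mulVec_mulVec,
    (Algebra.commute_of_mem_adjoin_singleton_of_commute (aeval_mem_adjoin_singleton F M) hB).eq]

theorem dvd_of_root {K : Type*} [Field K] [Algebra F K] {g Q : F[X]} (hg : Irreducible g) (z : K)
    (h1 : aeval z g = 0) (h2 : aeval z Q = 0) : g ∣ Q := by
  by_contra hn
  obtain ⟨a, b, hab⟩ := hg.coprime_iff_not_dvd.2 hn
  have := congrArg (aeval z) hab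
  simp [h1, h2] at this

variable [Fintype F] (hF : Fintype.card F = 3)

include hF in
theorem aeval_pow_three {A : Type*} [Semiring A] [Algebra F A] (y : A) (P : F[X]) (j : ℕ) :
    aeval (y ^ 3 ^ j) P = (aeval y P) ^ 3 ^ j := by
  induction j with
  | zero => simp
  | succ j ih =>
    have e := congrArg (aeval (y ^ 3 ^ j)) (FiniteField.expand_card P)
    rw [hF, expand_aeval, map_pow, ih, ← pow_mul, ← pow_mul, ← pow_succ] at e
    exact e

/-- what is used about the minimal polynomial -/
structure Cyc (M : Matrix n n F) (r : ℕ) : Prop where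
  deg : (minpoly F M).natDegree = Fintype.card n
  cyclic : ∃ v, ∀ P : F[X], aeval M P *ᵥ v = 0 → minpoly F M ∣ P
  roots : ∃ (K : Type u) (_ : Field K) (_ : Algebra F K) (y : K), ∀ Q : F[X],
    minpoly F M ∣ Q ↔ aeval y Q = 0 ∧ aeval (y ^ (r - 1)) Q = 0

include hF in
theorem cyc {M : Matrix n n F} (hn : Fintype.card n = 6) {r : ℕ} (hr : r = 7 ∨ r = 13)
    (hM : M ^ r = 1) (hfix : ∀ v, M *ᵥ v = v → v = 0)
    (hrev : aeval (M ^ (r - 1)) (minpoly F M) = 0) : Cyc M r := by
  classical
  have hrp : r.Prime := by rcases hr with rfl | rfl <;> norm_num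
  haveI := Fact.mk hrp
  haveI : Nonempty n := Fintype.card_pos_iff.1 (by omega)
  set f := minpoly F M with hf
  have hint : IsIntegral F M := Algebra.IsIntegral.isIntegral M
  have hf0 : f ≠ 0 := minpoly.ne_zero hint
  have hdeg : f.natDegree ≤ 6 := by
    have := natDegree_le_of_dvd (Matrix.minpoly_dvd_charpoly M) (Matrix.charpoly_monic M).ne_zero
    rwa [Matrix.charpoly_natDegree_eq_dim, hn] at this
  have hchar : ((r : ℕ) : F) ≠ 0 := by
    intro h
    have h3 : CharP F 3 := by
      obtain ⟨p, hp⟩ := CharP.exists F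
      haveI := Fact.mk (CharP.char_is_prime F p)
      obtain ⟨a, hp', hc⟩ := FiniteField.card F p
      have : p ∣ 3 := hF ▸ hc ▸ dvd_pow_self p a.2.ne'
      rwa [(Nat.prime_dvd_prime_iff_eq hp' Nat.prime_three).1 this] at hp
    rw [CharP.cast_eq_zero_iff F 3] at h
    rcases hr with rfl | rfl <;> norm_num at h
  have hdvd : f ∣ X ^ r - C (1 : F) := minpoly.dvd F M (by simp [hM])
  have hsq : Squarefree f := Squarefree.squarefree_of_dvd hdvd
    ((Polynomial.separable_X_pow_sub_C (1 : F) hchar one_ne_zero).squarefree)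
  have hX1 : ¬ (X - C (1 : F)) ∣ f := by
    rintro ⟨c, hc⟩
    have hc0 : aeval M c = 0 := by
      refine Matrix.ext_of_mulVec_single fun i => (hfix _ ?_).trans (Matrix.zero_mulVec _).symm
      have h1 : aeval M f *ᵥ Pi.single i (1 : F) = 0 := by
        rw [hf, minpoly.aeval, Matrix.zero_mulVec]
      rw [hc, aeval_mulVec_mul, map_sub, aeval_X, map_one, map_one, Matrix.sub_mulVec,
        Matrix.one_mulVec, sub_eq_zero] at h1
      exact h1
    have hcne : c ≠ 0 := fun h => hf0 (by rw [hc, h, mul_zero])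
    have h2 := natDegree_le_of_dvd (minpoly.dvd F M hc0) hcne
    rw [← hf, hc, natDegree_mul (X_sub_C_ne_zero 1) hcne, natDegree_X_sub_C] at h2
    omega
  -- irreducible factors
  have hfac : ∀ g : F[X], Irreducible g → g ∣ f → ∃ (K : Type u) (_ : Field K) (_ : Algebra F K) (y : K),
      aeval y g = 0 ∧ orderOf y = r ∧ (3 ≤ g.natDegree ∧ (g.natDegree = 3 ∨ g.natDegree = 6)) := by
    intro g hg hgf
    haveI := Fact.mk hg
    haveI : Module.Finite F (AdjoinRoot g) := (AdjoinRoot.powerBasis hg.ne_zero).finite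
    haveI : Finite (AdjoinRoot g) := Module.finite_of_finite F
    letI := Fintype.ofFinite (AdjoinRoot g)
    have hy : orderOf (AdjoinRoot.root g) = r := by
      refine orderOf_eq_prime ?_ fun h1 => hX1 ?_
      · have := AdjoinRoot.mk_eq_zero.2 (hgf.trans hdvd)
        rwa [map_sub, map_pow, AdjoinRoot.mk_X, map_one, map_one, sub_eq_zero] at this
      · have h2 : g ∣ X - C 1 := AdjoinRoot.mk_eq_zero.1
          (by rw [map_sub, AdjoinRoot.mk_X, h1, map_one, map_one, sub_self])
        exact (hg.associated_of_dvd (irreducible_X_sub_C 1) h2).symm.dvd.trans hgf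
    have hy0 : AdjoinRoot.root g ≠ 0 := fun h => by
      rw [h, orderOf_zero] at hy
      exact hrp.ne_zero hy.symm
    have h1 : r ∣ 3 ^ g.natDegree - 1 := by
      rw [← hy]
      refine orderOf_dvd_of_pow_eq_one ?_
      have := FiniteField.pow_card_sub_one_eq_one _ hy0
      rwa [Module.card_eq_pow_finrank (K := F) (V := AdjoinRoot g), hF,
        (AdjoinRoot.powerBasis hg.ne_zero).finrank, AdjoinRoot.powerBasis_dim] at this
    have h2 : g.natDegree ≤ 6 := (natDegree_le_of_dvd hgf hf0).trans hdeg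
    have h3 : 0 < g.natDegree := hg.natDegree_pos
    refine ⟨AdjoinRoot g, inferInstance, inferInstance, AdjoinRoot.root g,
      by rw [AdjoinRoot.aeval_eq, AdjoinRoot.mk_self], hy, ?_⟩
    rcases hr with rfl | rfl <;> interval_cases g.natDegree <;> first | (norm_num at h1; done) | norm_num
  obtain ⟨g, hg, hgf⟩ : ∃ g, Irreducible g ∧ g ∣ f :=
    WfDvdMonoid.exists_irreducible_factor (minpoly.not_isUnit F M) hf0
  obtain ⟨K, _, _, y, hy, hyo, -, hgd⟩ := hfac g hg hgf
  have hyr : y ^ r = 1 := hyo ▸ pow_orderOf_eq_one y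
  have hfy : aeval y f = 0 := aeval_eq_zero_of_dvd_aeval_eq_zero hgf hy
  have hfy' : aeval (y ^ (r - 1)) f = 0 := by
    have h1 : f ∣ f.comp (X ^ (r - 1)) :=
      minpoly.dvd F M (by rw [aeval_comp, map_pow, aeval_X]; exact hrev)
    have := aeval_eq_zero_of_dvd_aeval_eq_zero h1 hfy
    rwa [aeval_comp, map_pow, aeval_X] at this
  have hne : ∃ u : n → F, u ≠ 0 := ⟨fun _ => 1, fun h => one_ne_zero (congrFun h (Classical.arbitrary n))⟩
  rcases hgd with hgd | hgd
  swap
  · have hfg : f ∣ g := (associated_of_dvd_of_natDegree_le hgf hf0 (by omega)).symm.dvd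
    refine ⟨?_, ?_, ⟨K, inferInstance, inferInstance, y, fun Q => ⟨fun h =>
      ⟨aeval_eq_zero_of_dvd_aeval_eq_zero h hfy, aeval_eq_zero_of_dvd_aeval_eq_zero h hfy'⟩,
      fun h => hfg.trans (dvd_of_root hg y hy h.1)⟩⟩⟩
    · have := natDegree_le_of_dvd hgf hf0
      rw [← hf]
      omega
    · obtain ⟨u, hu⟩ := hne
      refine ⟨u, fun P hP => hfg.trans ?_⟩
      by_contra hn'
      refine hu (eq_zero_of_coprime M (hg.coprime_iff_not_dvd.2 hn') ?_ hP)
      rw [aeval_eq_zero_of_dvd_aeval_eq_zero hfg (minpoly.aeval F M), Matrix.zero_mulVec]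
  obtain ⟨h, hh⟩ := hgf
  have hh0 : h ≠ 0 := fun e => hf0 (by rw [hh, e, mul_zero])
  have hhd : h.natDegree ≤ 3 := by
    have e : f.natDegree = g.natDegree + h.natDegree := by rw [hh, natDegree_mul hg.ne_zero hh0]
    omega
  -- the inverse root is a root of the second factor
  have hgy' : aeval (y ^ (r - 1)) g ≠ 0 := by
    intro hroot
    have h13 : r = 13 := by
      rcases hr with rfl | rfl
      · exfalso
        obtain ⟨_, _, _, z, -, hz, -⟩ := hfac g hg (hh ▸ dvd_mul_right g h)
        have hh3 : aeval y g = 0 := hy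
        have e := aeval_pow_three hF y g 3
        have hroots : ∀ j, aeval (y ^ 3 ^ j) g = 0 := fun j => by
          rw [aeval_pow_three hF y g j, hy, zero_pow (pow_ne_zero _ (by norm_num))]
        have hne' : g.map (algebraMap F K) ≠ 0 :=
          (Polynomial.map_ne_zero_iff (algebraMap F K).injective).2 hg.ne_zero
        have hsub : (Finset.range 6).image (fun j => y ^ 3 ^ j) ⊆ (g.map (algebraMap F K)).roots.toFinset := by
          intro z hz
          obtain ⟨j, -, rfl⟩ := Finset.mem_image.1 hz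
          rw [Multiset.mem_toFinset, mem_roots hne', IsRoot, eval_map_algebraMap]
          exact hroots j
        have h1 := (Finset.card_le_card hsub).trans ((Multiset.toFinset_card_le _).trans (card_roots' _))
        rw [Finset.card_image_of_injOn ?_, Finset.card_range, natDegree_map, hgd] at h1
        · omega
        intro a ha b hb hab
        simp only [Finset.coe_range, Set.mem_Iio] at ha hb
        have hab' : y ^ 3 ^ a = y ^ 3 ^ b := hab
        rw [← pow_mod_orderOf y (3 ^ a), ← pow_mod_orderOf y (3 ^ b), hyo] at hab'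
        have h2 := pow_injOn_Iio_orderOf (by simp [hyo, Nat.mod_lt]) (by simp [hyo, Nat.mod_lt]) hab'
        exact (show ∀ a < 6, ∀ b < 6, 3 ^ a % 7 = 3 ^ b % 7 → a = b by decide) a ha b hb h2
      · rfl
    subst h13
    have hroots : ∀ j, aeval (y ^ 3 ^ j) g = 0 := fun j => by
      rw [aeval_pow_three hF y g j, hy, zero_pow (pow_ne_zero _ (by norm_num))]
    have hne' : g.map (algebraMap F K) ≠ 0 :=
      (Polynomial.map_ne_zero_iff (algebraMap F K).injective).2 hg.ne_zero
    have hsub : ({1, 3, 9, 12} : Finset ℕ).image (fun j => y ^ j) ⊆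
        (g.map (algebraMap F K)).roots.toFinset := by
      intro z hz
      obtain ⟨j, hj, rfl⟩ := Finset.mem_image.1 hz
      rw [Multiset.mem_toFinset, mem_roots hne', IsRoot, eval_map_algebraMap]
      simp only [Finset.mem_insert, Finset.mem_singleton] at hj
      rcases hj with rfl | rfl | rfl | rfl
      · exact hroots 0
      · exact hroots 1
      · exact hroots 2
      · exact hroot
    have h1 := (Finset.card_le_card hsub).trans ((Multiset.toFinset_card_le _).trans (card_roots' _))
    rw [Finset.card_image_of_injOn ?_, natDegree_map, hgd] at h1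
    · norm_num at h1
    intro a ha b hb hab
    simp only [Finset.coe_insert, Finset.coe_singleton, Set.mem_insert_iff, Set.mem_singleton_iff] at ha hb
    exact pow_injOn_Iio_orderOf (by simp [hyo]; omega) (by simp [hyo]; omega) (show y ^ a = y ^ b from hab)
  have hhy' : aeval (y ^ (r - 1)) h = 0 := by
    have := hfy'
    rw [hh, map_mul] at this
    exact (mul_eq_zero.1 this).resolve_left hgy'
  have hhf : h ∣ f := hh ▸ dvd_mul_left h g
  have hhirr : Irreducible h := by
    have hnu : ¬ IsUnit h := fun hu => by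
      obtain ⟨c, hc, rfl⟩ := Polynomial.isUnit_iff.1 hu
      rw [aeval_C, map_eq_zero] at hhy'
      exact hc.ne_zero hhy'
    obtain ⟨g', hg', hg'h⟩ := WfDvdMonoid.exists_irreducible_factor hnu hh0
    obtain ⟨_, _, _, _, -, -, hge, -⟩ := hfac g' hg' (hg'h.trans hhf)
    exact (associated_of_dvd_of_natDegree_le hg'h hh0 (by omega)).irreducible hg'
  have hcop : IsCoprime g h := hg.coprime_iff_not_dvd.2 fun hd =>
    hg.not_isUnit (hsq g (hh ▸ mul_dvd_mul_left g hd))
  have hiff : ∀ Q : F[X], f ∣ Q ↔ aeval y Q = 0 ∧ aeval (y ^ (r - 1)) Q = 0 := fun Q =>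
    ⟨fun hd => ⟨aeval_eq_zero_of_dvd_aeval_eq_zero hd hfy, aeval_eq_zero_of_dvd_aeval_eq_zero hd hfy'⟩,
      fun hd => hh ▸ hcop.mul_dvd (dvd_of_root hg y hy hd.1) (dvd_of_root hhirr _ hhy' hd.2)⟩
  obtain ⟨_, _, _, _, -, -, hhe, -⟩ := hfac h hhirr hhf
  have hfd : f.natDegree = 6 := by
    have e : f.natDegree = g.natDegree + h.natDegree := by rw [hh, natDegree_mul hg.ne_zero hh0]
    omega
  refine ⟨hfd.trans hn.symm, ?_, ⟨K, inferInstance, inferInstance, y, hiff⟩⟩
  have hnz : ∀ Q : F[X], Q ≠ 0 → Q.natDegree < 6 → ∃ u, aeval M Q *ᵥ u ≠ 0 := by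
    intro Q hQ hQd
    by_contra hc
    push Not at hc
    have h1 := natDegree_le_of_dvd (minpoly.dvd F M (Matrix.ext_of_mulVec_single fun i =>
      (hc _).trans (Matrix.zero_mulVec _).symm)) hQ
    rw [← hf] at h1
    omega
  obtain ⟨u₁, hu₁⟩ := hnz h hh0 (by omega)
  obtain ⟨u₂, hu₂⟩ := hnz g hg.ne_zero (by omega)
  have hkill : ∀ u, aeval M f *ᵥ u = 0 := fun u => by rw [hf, minpoly.aeval, Matrix.zero_mulVec]
  refine ⟨aeval M h *ᵥ u₁ + aeval M g *ᵥ u₂, fun P hP => ?_⟩
  rw [Matrix.mulVec_add] at hP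
  change f ∣ P
  rw [hh]
  refine hcop.mul_dvd ?_ ?_
  · by_contra hn'
    have h1 := congrArg (fun w => aeval M h *ᵥ w) hP
    simp only [Matrix.mulVec_add, Matrix.mulVec_zero] at h1
    rw [← aeval_mulVec_mul, ← aeval_mulVec_mul, ← aeval_mulVec_mul, ← aeval_mulVec_mul,
      show h * P * g = P * f by rw [hh]; ring, aeval_mulVec_mul M P f, hkill, Matrix.mulVec_zero,
      add_zero, aeval_mulVec_mul M (h * P) h] at h1
    refine hu₁ (eq_zero_of_coprime M (?_ : IsCoprime g (h * P)) ?_ h1)
    · exact hcop.mul_right (hg.coprime_iff_not_dvd.2 hn')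
    · rw [← aeval_mulVec_mul, ← hh, hkill]
  · by_contra hn'
    have h1 := congrArg (fun w => aeval M g *ᵥ w) hP
    simp only [Matrix.mulVec_add, Matrix.mulVec_zero] at h1
    rw [← aeval_mulVec_mul, ← aeval_mulVec_mul, ← aeval_mulVec_mul, ← aeval_mulVec_mul,
      show g * P * h = P * f by rw [hh]; ring, aeval_mulVec_mul M P f, hkill, Matrix.mulVec_zero,
      zero_add, aeval_mulVec_mul M (g * P) g] at h1
    refine hu₂ (eq_zero_of_coprime M (?_ : IsCoprime h (g * P)) ?_ h1)
    · exact hcop.symm.mul_right (hhirr.coprime_iff_not_dvd.2 hn')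
    · rw [← aeval_mulVec_mul, mul_comm h g, ← hh, hkill]

end CfsgLib.PrimeGraphSp63.Six
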