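import Cfsg.Agent.Lib.Suzuki.Linear

/-!
Matrices of order thirteen over the field with eight elements and their Frobenius twists.
-/

set_option autoImplicit false

namespace CfsgLib.PrimeGraphSp63

open Polynomial Matrix

universe u

variable {F : Type u} [Field F] [CharP F 2]

/-- squaring twists the coefficients -/
theorem aeval_sq (σ : F ≃+* F) (hσ : ∀ x, σ x = x ^ 2) {R : Type*} [CommRing R] [Algebra F R]
    [CharP R 2] (P : F[X]) (y : R) :
    aeval (y ^ 2) (P.map (σ : F →+* F)) = (aeval y P) ^ 2 := by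
  induction P using Polynomial.induction_on' with
  | add p q hp hq => rw [Polynomial.map_add, map_add, map_add, hp, hq, CharTwo.add_sq]
  | monomial n c =>
    rw [map_monomial, aeval_monomial, aeval_monomial, RingEquiv.coe_toRingHom, hσ, map_pow,
      mul_pow, ← pow_mul, ← pow_mul, mul_comm]
    ring

theorem aeval_transpose {n : Type*} [Fintype n] [DecidableEq n] (P : F[X]) (A : Matrix n n F) :
    aeval Aᵀ P = (aeval A P)ᵀ := by
  induction P using Polynomial.induction_on' with
  | add p q hp hq => rw [map_add, map_add, hp, hq, transpose_add]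
  | monomial k c =>
    rw [aeval_monomial, aeval_monomial, ← Algebra.smul_def, ← Algebra.smul_def, transpose_smul,
      transpose_pow]

theorem aeval_map_matrix {n : Type*} [Fintype n] [DecidableEq n] (f : F →+* F) (P : F[X])
    (A : Matrix n n F) : aeval (A.map f) (P.map f) = (aeval A P).map f := by
  induction P using Polynomial.induction_on' with
  | add p q hp hq =>
    rw [Polynomial.map_add, map_add, map_add, hp, hq, Matrix.map_add _ f.map_add]
  | monomial k c =>
    rw [map_monomial, aeval_monomial, aeval_monomial, ← Algebra.smul_def, ← Algebra.smul_def]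
    ext i j
    have : (A.map f) ^ k = (A ^ k).map f := ((f.mapMatrix).map_pow A k).symm
    rw [this]
    simp [Matrix.smul_apply, map_mul]

theorem intertwine {n : Type*} [Fintype n] [DecidableEq n] (P : F[X]) {A B X : Matrix n n F}
    (h : A * X = X * B) : aeval A P * X = X * aeval B P := by
  induction P using Polynomial.induction_on' with
  | add p q hp hq => rw [map_add, map_add, add_mul, mul_add, hp, hq]
  | monomial k c =>
    have hk : A ^ k * X = X * B ^ k := by
      induction k with
      | zero => simp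
      | succ k ih => rw [pow_succ, pow_succ, mul_assoc, h, ← mul_assoc, ih, mul_assoc]
    rw [aeval_monomial, aeval_monomial, ← Algebra.smul_def, ← Algebra.smul_def, smul_mul_assoc,
      mul_smul_comm, hk]

variable [Finite F] (hF : Nat.card F = 8) (σ : F ≃+* F) (hσ : ∀ x, σ x = x ^ 2)

theorem four_dvd_of_dvd (d : ℕ) (h : 13 ∣ 8 ^ d - 1) : 4 ∣ d := by
  have hd : d = 4 * (d / 4) + d % 4 := (Nat.div_add_mod d 4).symm
  have h1 : 1 ≤ 8 ^ d := Nat.one_le_pow _ _ (by norm_num)
  have h2 : 8 ^ d % 13 = 8 ^ (d % 4) % 13 := by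
    conv_lhs => rw [hd, pow_add, pow_mul, Nat.mul_mod, Nat.pow_mod]
    norm_num
  have h3 : 8 ^ d % 13 = 1 := by omega
  have h4 : d % 4 < 4 := Nat.mod_lt _ (by norm_num)
  have h5 : d % 4 = 0 := by
    rw [h2] at h3
    interval_cases hh : d % 4 <;> first | rfl | norm_num at h3
  omega

/-- the minimal polynomial of a matrix of order thirteen -/
structure Min13 (A : Matrix (Fin 4) (Fin 4) F) : Prop where
  irr : Irreducible (minpoly F A)
  deg : (minpoly F A).natDegree = 4

include hF in
theorem min13 {A : Matrix (Fin 4) (Fin 4) F} (hA : A ^ 13 = 1) (hA1 : A ≠ 1) : Min13 A := by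
  have h13 : ((13 : ℕ) : F) ≠ 0 := fun h => by
    rw [CharP.cast_eq_zero_iff F 2] at h
    norm_num at h
  obtain ⟨h1, h2⟩ := CfsgLib.Suzuki.irreducible_minpoly_of_order (by norm_num) hA hA1 h13
    (fun d hd => four_dvd_of_dvd d (hF ▸ hd))
  exact ⟨h1, h2⟩

/-- the root of the minimal polynomial -/
theorem exists_root {A : Matrix (Fin 4) (Fin 4) F} (hA : A ^ 13 = 1) (hA1 : A ≠ 1)
    (h : Irreducible (minpoly F A)) :
    ∃ (K : Type u) (_ : Field K) (_ : Algebra F K) (_ : CharP K 2) (y : K),
      orderOf y = 13 ∧ ∀ P : F[X], aeval y P = 0 ↔ minpoly F A ∣ P := by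
  have := Fact.mk h
  refine ⟨AdjoinRoot (minpoly F A), inferInstance, inferInstance,
    charP_of_injective_algebraMap (algebraMap F (AdjoinRoot (minpoly F A))).injective 2,
    AdjoinRoot.root _, ?_, fun P => by rw [AdjoinRoot.aeval_eq, AdjoinRoot.mk_eq_zero]⟩
  have := Fact.mk (show Nat.Prime 13 by norm_num)
  have hd : minpoly F A ∣ X ^ 13 - C 1 := minpoly.dvd F A (by simp [hA])
  refine orderOf_eq_prime ?_ fun h1 => hA1 ?_
  · have := AdjoinRoot.mk_eq_zero.2 hd
    rwa [map_sub, map_pow, AdjoinRoot.mk_X, map_one, map_one, sub_eq_zero] at this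
  · have h2 : minpoly F A ∣ X - C 1 := AdjoinRoot.mk_eq_zero.1
      (by rw [map_sub, AdjoinRoot.mk_X, h1, map_one, map_one, sub_self])
    have h3 : aeval A (X - C (1 : F)) = 0 := aeval_eq_zero_of_dvd_aeval_eq_zero h2 (minpoly.aeval F A)
    rwa [map_sub, aeval_X, map_one, map_one, sub_eq_zero] at h3

include hF hσ in
/-- the minimal polynomial is not fixed by the Frobenius map -/
theorem map_minpoly_ne {A : Matrix (Fin 4) (Fin 4) F} (hA : A ^ 13 = 1) (hA1 : A ≠ 1) :
    (minpoly F A).map (σ : F →+* F) ≠ minpoly F A := by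
  intro he
  obtain ⟨hirr, hdeg⟩ := min13 hF hA hA1
  obtain ⟨K, _, _, _, y, hy, hP⟩ := exists_root hA hA1 hirr
  classical
  set P := minpoly F A
  have hroot : ∀ k : ℕ, aeval (y ^ 2 ^ k) P = 0 := by
    intro k
    induction k with
    | zero => rw [pow_zero, pow_one]; exact (hP P).2 dvd_rfl
    | succ k ih =>
      have := aeval_sq σ hσ P (y ^ 2 ^ k)
      rw [he, ih, ← pow_mul, ← pow_succ, zero_pow two_ne_zero] at this
      exact this
  have hinj : Set.InjOn (fun k : ℕ => y ^ 2 ^ k) (Finset.range 12) := by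
    intro a ha b hb hab
    simp only [Finset.coe_range, Set.mem_Iio] at ha hb
    have hy0 : y ≠ 0 := fun h0 => by simp [h0] at hy
    have h1 : 2 ^ a % 13 = 2 ^ b % 13 := by
      have h2 := pow_mod_orderOf y (2 ^ a)
      have h3 := pow_mod_orderOf y (2 ^ b)
      rw [hy] at h2 h3
      have h4 : y ^ (2 ^ a % 13) = y ^ (2 ^ b % 13) := by rw [h2, h3]; exact hab
      exact pow_injOn_Iio_orderOf (by simp [hy, Nat.mod_lt]) (by simp [hy, Nat.mod_lt]) h4
    exact (show ∀ a < 12, ∀ b < 12, 2 ^ a % 13 = 2 ^ b % 13 → a = b by decide) a ha b hb h1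
  have hne : P.map (algebraMap F K) ≠ 0 :=
    (Polynomial.map_ne_zero_iff (algebraMap F K).injective).2 hirr.ne_zero
  have hsub : (Finset.range 12).image (fun k => y ^ 2 ^ k) ⊆ (P.map (algebraMap F K)).roots.toFinset := by
    intro z hz
    obtain ⟨k, -, rfl⟩ := Finset.mem_image.1 hz
    rw [Multiset.mem_toFinset, mem_roots hne, IsRoot, eval_map_algebraMap]
    exact hroot k
  have h1 := (Finset.card_le_card hsub).trans
    ((Multiset.toFinset_card_le _).trans (card_roots' _))
  rw [Finset.card_image_of_injOn hinj, Finset.card_range, natDegree_map, hdeg] at h1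
  omega

omit [Finite F] in
theorem monic_map {A : Matrix (Fin 4) (Fin 4) F} (f : F →+* F) : ((minpoly F A).map f).Monic :=
  (minpoly.monic (Algebra.IsIntegral.isIntegral A)).map f

include hF in
/-- an element whose twist is conjugate to it forces the twist to fix the minimal polynomial -/
theorem map_eq_of_conj (f : F →+* F) {A g : Matrix (Fin 4) (Fin 4) F} (hA : A ^ 13 = 1)
    (hA1 : A ≠ 1) (hg : IsUnit g) (hc : g * A.map f = A * g) :
    (minpoly F A).map f = minpoly F A := by
  obtain ⟨hirr, -⟩ := min13 hF hA hA1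
  have h1 : aeval (A.map f) (minpoly F A) = 0 := by
    have := intertwine (minpoly F A) (X := g) hc.symm
    rw [minpoly.aeval, zero_mul, eq_comm, hg.mul_right_eq_zero] at this
    exact this
  have hA' : (A.map f) ^ 13 = 1 := by
    show (f.mapMatrix A) ^ 13 = 1
    rw [← map_pow, hA, map_one]
  have hA1' : A.map f ≠ 1 := fun e => hA1 (Matrix.map_injective f.injective (by simpa using e))
  obtain ⟨hirr', -⟩ := min13 hF hA' hA1'
  have hmon := minpoly.monic (Algebra.IsIntegral.isIntegral (R := F) A)
  have e1 : minpoly F (A.map f) = minpoly F A := eq_of_monic_of_associated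
    (minpoly.monic (Algebra.IsIntegral.isIntegral _)) hmon
    (hirr'.associated_of_dvd hirr (minpoly.dvd F _ h1))
  have h2 : aeval (A.map f) ((minpoly F A).map f) = 0 := by
    rw [aeval_map_matrix, minpoly.aeval, Matrix.map_zero _ f.map_zero]
  refine (eq_of_monic_of_associated hmon (monic_map f) ?_).symm
  have h3 := minpoly.dvd F _ h2
  rw [e1] at h3
  refine associated_of_dvd_of_natDegree_le h3 (monic_map f).ne_zero ?_
  rw [natDegree_map]

include hF hσ in
/-- no fixed vectors in the twisted tensor product -/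
theorem eq_zero_of_fixed {A X₀ : Matrix (Fin 4) (Fin 4) F} (hA : A ^ 13 = 1) (hA1 : A ≠ 1)
    (h : A * X₀ * (A.map σ)ᵀ = X₀) : X₀ = 0 := by
  obtain ⟨hirr, hdeg⟩ := min13 hF hA hA1
  set P := minpoly F A with hPdef
  set B := A.map σ with hBdef
  have hB : B ^ 13 = 1 := by
    show ((σ : F →+* F).mapMatrix A) ^ 13 = 1
    rw [← map_pow, hA, map_one]
  set Q := P.map (σ : F →+* F) with hQdef
  have hQB : aeval B Q = 0 := by
    rw [hQdef, show B = A.map (σ : F →+* F) from rfl, aeval_map_matrix, minpoly.aeval,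
      Matrix.map_zero _ (map_zero _)]
  have hB1 : B ≠ 1 := fun e => hA1 (Matrix.map_injective σ.injective (by simpa [hBdef] using e))
  obtain ⟨hirrB, hdegB⟩ := min13 hF hB hB1
  have hQmin : minpoly F B = Q := eq_of_monic_of_associated
    (minpoly.monic (Algebra.IsIntegral.isIntegral _)) (monic_map _)
    (associated_of_dvd_of_natDegree_le (minpoly.dvd F _ hQB) (monic_map _).ne_zero
      (by rw [hQdef, natDegree_map, hdegB, hdeg]))
  -- the inverse is a root as well
  have hpow : minpoly F B ∣ (minpoly F B).comp (X ^ 64) := by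
    obtain ⟨K, _, _, _, y, -, hP⟩ := exists_root hB hB1 hirrB
    rw [← hP, aeval_comp, map_pow, aeval_X]
    have : Fintype F := Fintype.ofFinite F
    have h8 : ∀ (z : K), aeval z (minpoly F B) = 0 → aeval (z ^ 8) (minpoly F B) = 0 := by
      intro z hz
      have e : expand F 8 (minpoly F B) = (minpoly F B) ^ 8 := by
        have := FiniteField.expand_card (minpoly F B)
        rwa [← Nat.card_eq_fintype_card, hF] at this
      have := congrArg (aeval z) e
      rwa [expand_aeval, map_pow, hz, zero_pow (by norm_num)] at this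
    rw [show (64 : ℕ) = 8 * 8 by norm_num, pow_mul]
    exact h8 _ (h8 _ ((hP _).2 dvd_rfl))
  have hQ' : aeval (Bᵀ ^ 12) Q = 0 := by
    have h1 : aeval Bᵀ (minpoly F B) = 0 := by rw [aeval_transpose, minpoly.aeval, transpose_zero]
    have h2 := aeval_eq_zero_of_dvd_aeval_eq_zero hpow h1
    rw [aeval_comp, map_pow, aeval_X, hQmin] at h2
    rwa [show (64 : ℕ) = 13 * 4 + 12 by norm_num, pow_add, pow_mul, ← transpose_pow, hB,
      transpose_one, one_pow, one_mul] at h2
  have hX : A * X₀ = X₀ * Bᵀ ^ 12 := by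
    calc A * X₀ = A * X₀ * (Bᵀ ^ 13) := by rw [← transpose_pow, hB, transpose_one, mul_one]
      _ = A * X₀ * Bᵀ * Bᵀ ^ 12 := by rw [pow_succ', ← mul_assoc]
      _ = X₀ * Bᵀ ^ 12 := by rw [h]
  have hPX : X₀ * aeval (Bᵀ ^ 12) P = 0 := by
    rw [← intertwine P hX, minpoly.aeval, zero_mul]
  have hcop : IsCoprime P Q := by
    refine hirr.coprime_iff_not_dvd.2 fun hd => ?_
    refine map_minpoly_ne hF σ hσ hA hA1 (eq_of_monic_of_associated
      (monic_map _) (minpoly.monic (Algebra.IsIntegral.isIntegral _)) ?_)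
    exact (associated_of_dvd_of_natDegree_le hd (monic_map _).ne_zero
      (by rw [hQdef, natDegree_map])).symm
  obtain ⟨u, v, huv⟩ := hcop
  have := congrArg (aeval (Bᵀ ^ 12)) huv
  rw [map_add, map_mul, map_mul, hQ', mul_zero, add_zero, map_one] at this
  calc X₀ = X₀ * (aeval (Bᵀ ^ 12) u * aeval (Bᵀ ^ 12) P) := by rw [this, mul_one]
    _ = X₀ * (aeval (Bᵀ ^ 12) (P * u)) := by rw [← map_mul, mul_comm u P]
    _ = 0 := by rw [map_mul, ← mul_assoc, hPX, zero_mul]

end CfsgLib.PrimeGraphSp63
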