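import Cfsg.Agent.Lib.PrimeGraphSp63.MatrixThirteen
import Cfsg.Agent.Lib.Suzuki.OutAutomorphisms
import Cfsg.Agent.Lib.Suzuki.Partition

/-!
The automorphism group of the smallest Suzuki group and a module for it.
-/

set_option autoImplicit false
set_option linter.unusedSectionVars false

namespace CfsgLib.PrimeGraphSp63

open Matrix CfsgLib.Suzuki

/-- a field with eight elements -/
structure Eight (F : Type*) [Field F] : Prop where
  card : Nat.card F = 8

variable {F : Type*} [Field F] [Finite F] [CharP F 2] (hE : Eight F)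

theorem Eight.hyp (hE : Eight F) : Hyp F 1 := ⟨le_rfl, hE.card.trans (by norm_num)⟩

/-- the Frobenius automorphism -/
noncomputable def frob (F : Type*) [Field F] [Finite F] [CharP F 2] : F ≃+* F := frobeniusEquiv F 2

theorem frob_apply (x : F) : frob F x = x ^ 2 := rfl

theorem Eight.pow_eight (hE : Eight F) (x : F) : x ^ 8 = x := by
  have : Fintype F := Fintype.ofFinite F
  rw [← hE.card, Nat.card_eq_fintype_card, FiniteField.pow_card]

theorem Eight.order_frob (hE : Eight F) : orderOf (frob F) = 3 := by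
  have := Fact.mk Nat.prime_three
  refine orderOf_eq_prime (RingEquiv.ext fun x => ?_) fun h => ?_
  · show frob F (frob F (frob F x)) = x
    rw [frob_apply, frob_apply, frob_apply, ← pow_mul, ← pow_mul]
    exact hE.pow_eight x
  · obtain ⟨x, hx0, hx1⟩ := hE.hyp.exists_ne_zero_one
    have h2 : x ^ 2 = x := by rw [← frob_apply, h]; rfl
    exact hx1 ((mul_eq_left₀ hx0).1 (by rw [← sq, h2]))

/-- the Galois group -/
noncomputable abbrev Gal8 (F : Type*) [Field F] [Finite F] [CharP F 2] : Subgroup (F ≃+* F) :=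
  Subgroup.zpowers (frob F)

/-- the generator -/
noncomputable def gen (F : Type*) [Field F] [Finite F] [CharP F 2] : Gal8 F :=
  ⟨frob F, Subgroup.mem_zpowers _⟩

theorem gal_comm (c c' : Gal8 F) : c * c' = c' * c := mul_comm' c c'

theorem Eight.gal_cases (hE : Eight F) {c : Gal8 F} (hc : c ≠ 1) :
    (∀ x : F, (c : F ≃+* F) x = x ^ 2) ∨ ∀ x : F, (c : F ≃+* F) x = x ^ 4 := by
  classical
  have hfin : IsOfFinOrder (frob F) := by
    rw [← orderOf_pos_iff, hE.order_frob]; norm_num
  obtain ⟨k, hk⟩ := hfin.mem_zpowers_iff_mem_range_orderOf.1 c.2 |> Finset.mem_image.1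
  obtain ⟨hk, hkc⟩ := hk
  rw [Finset.mem_range, hE.order_frob] at hk
  interval_cases k
  · exact absurd (Subtype.ext hkc.symm) hc
  · left; intro x; rw [← hkc, pow_one]; rfl
  · right; intro x
    rw [← hkc]
    show frob F (frob F x) = x ^ 4
    rw [frob_apply, frob_apply, ← pow_mul]

/-- field automorphisms acting on the Suzuki group -/
def fieldHom (h : Hyp F 1) : (F ≃+* F) →* MulAut (Cfsg.Sz F 1) :=
  MonoidHom.mk' h.fieldAut fun σ τ => by
    refine MulEquiv.ext fun g => Subtype.ext (Matrix.SpecialLinearGroup.ext _ _ fun i j => ?_)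
    show Hyp.slMap (σ * τ) (g : Matrix.SpecialLinearGroup (Fin 4) F) i j =
      Hyp.slMap σ (Hyp.slMap τ (g : Matrix.SpecialLinearGroup (Fin 4) F)) i j
    simp [Hyp.slMap, Matrix.SpecialLinearGroup.map_apply_coe]

/-- the action of the Galois group -/
noncomputable def galHom : Gal8 F →* MulAut (Cfsg.Sz F 1) :=
  (fieldHom hE.hyp).comp (Gal8 F).subtype

/-- the extension of the Suzuki group by its field automorphisms -/
abbrev AutSz := Cfsg.Sz F 1 ⋊[galHom hE] Gal8 F

/-- twisted matrices -/
def tw (c : F ≃+* F) : Cfsg.Sz F 1 →* Matrix (Fin 4) (Fin 4) F :=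
  (c : F →+* F).mapMatrix.toMonoidHom.comp (mat F 1)

theorem tw_apply (c : F ≃+* F) (s : Cfsg.Sz F 1) : tw c s = (mat F 1 s).map c := rfl

theorem tw_galHom (c c' : Gal8 F) (s : Cfsg.Sz F 1) :
    tw (c : F ≃+* F) (galHom hE c' s) = tw ((c * c' : Gal8 F) : F ≃+* F) s := rfl

/-- one copy of the module -/
abbrev Mod (F : Type*) [Field F] [Finite F] [CharP F 2] := Gal8 F → Matrix (Fin 4) (Fin 4) F

/-- the action on one copy -/
noncomputable def act (q : AutSz hE) (X : Mod F) : Mod F := fun c =>
  tw (c : F ≃+* F) q.left * X (c * q.right) * (tw ((c * gen F : Gal8 F) : F ≃+* F) q.left)ᵀ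

theorem act_one (X : Mod F) : act hE 1 X = X := by
  funext c
  simp [act]

theorem act_mul (q q' : AutSz hE) (X : Mod F) : act hE (q * q') X = act hE q (act hE q' X) := by
  funext c
  simp only [act, SemidirectProduct.mul_left, SemidirectProduct.mul_right, map_mul, tw_galHom,
    transpose_mul]
  rw [← mul_assoc c q.right q'.right, mul_assoc c (gen F) q.right, gal_comm (gen F) q.right,
    ← mul_assoc c q.right (gen F)]
  simp only [mul_assoc]

theorem act_add (q : AutSz hE) (X Y : Mod F) : act hE q (X + Y) = act hE q X + act hE q Y := by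
  funext c
  simp [act, mul_add, add_mul]

/-- the action on `n` copies -/
noncomputable def moduleHom (n : ℕ) : AutSz hE →* MulAut (Multiplicative (Fin n → Mod F)) where
  toFun q :=
    { toFun := fun v => Multiplicative.ofAdd fun i => act hE q (v.toAdd i)
      invFun := fun v => Multiplicative.ofAdd fun i => act hE q⁻¹ (v.toAdd i)
      left_inv := fun v => funext fun i => by
        show act hE q⁻¹ (act hE q (v.toAdd i)) = v.toAdd i
        rw [← act_mul, inv_mul_cancel, act_one]
      right_inv := fun v => funext fun i => by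
        show act hE q (act hE q⁻¹ (v.toAdd i)) = v.toAdd i
        rw [← act_mul, mul_inv_cancel, act_one]
      map_mul' := fun v w => funext fun i => act_add hE q (v.toAdd i) (w.toAdd i) }
  map_one' := MulEquiv.ext fun v => funext fun i => act_one hE (v.toAdd i)
  map_mul' q q' := MulEquiv.ext fun v => funext fun i => act_mul hE q q' (v.toAdd i)

/-- the witness group -/
abbrev Wit (n : ℕ) := Multiplicative (Fin n → Mod F) ⋊[moduleHom hE n] AutSz hE

theorem Eight.card_suz (hE : Eight F) : Nat.card (Cfsg.Sz F 1) = 29120 := by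
  rw [hE.hyp.card_group]; norm_num

theorem Eight.card_gal (hE : Eight F) : Nat.card (Gal8 F) = 3 := by
  rw [Nat.card_zpowers, hE.order_frob]

theorem finite_wit (n : ℕ) : Finite (Wit hE n) := by
  have := hE.hyp.finite_group
  have : Finite (Gal8 F) := Nat.finite_of_card_ne_zero (by rw [hE.card_gal]; norm_num)
  have : Finite (AutSz hE) := Finite.of_equiv _ SemidirectProduct.equivProd.symm
  have : Finite (Mod F) := Pi.finite
  have : Finite (Multiplicative (Fin n → Mod F)) := inferInstanceAs (Finite (Fin n → Mod F))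
  exact Finite.of_equiv _ SemidirectProduct.equivProd.symm

theorem card_wit (n : ℕ) : Nat.card (Wit hE n) = 2 ^ (144 * n) * 87360 := by
  have : Finite (Gal8 F) := Nat.finite_of_card_ne_zero (by rw [hE.card_gal]; norm_num)
  have h8 : Nat.card (Matrix (Fin 4) (Fin 4) F) = 2 ^ 48 := by
    show Nat.card (Fin 4 → Fin 4 → F) = _
    simp only [Nat.card_fun, Nat.card_eq_fintype_card (α := Fin 4), Fintype.card_fin, hE.card]
    norm_num
  rw [SemidirectProduct.card, SemidirectProduct.card, hE.card_suz, hE.card_gal,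
    Nat.card_congr Multiplicative.toAdd, Nat.card_fun, Nat.card_fun, hE.card_gal, h8,
    Nat.card_eq_fintype_card (α := Fin n), Fintype.card_fin, ← pow_mul, ← pow_mul, show 144 * n = 48 * (3 * n) by ring]

/-- a Suzuki element commuting with an outer element has small order -/
theorem eq_one_of_twist_seven {a g : Cfsg.Sz F 1} (hE : Eight F) {c : Gal8 F} (hc : c ≠ 1)
    (ha : orderOf a = 7) (h : g * galHom hE c a = a * g) : False := by
  have hH := hE.hyp
  have := hH.finite_group
  have ha1 : a ≠ 1 := fun e => by simp [e] at ha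
  rcases hH.trichotomy ha1 with ⟨k, x, y, rfl, -⟩ | ⟨k, t, rfl, ht⟩ | hfree
  · have h4 := hH.orderOf_dvd_of_conj_U (g := k * hH.u x y * k⁻¹) (k := k)
      (by rw [show k⁻¹ * (k * hH.u x y * k⁻¹) * k = hH.u x y by group]; exact hH.u_mem_U x y)
    rw [ha] at h4
    norm_num at h4
  · set t' : Fˣ := Units.map (((c : F ≃+* F) : F →* F)) t with ht'
    have hck : galHom hE c (k * hH.d t * k⁻¹) =
        galHom hE c k * hH.d t' * (galHom hE c k)⁻¹ := by
      rw [map_mul, map_mul, map_inv]
      congr 2
      exact hH.fieldAut_d _ t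
    set g' := k⁻¹ * g * galHom hE c k with hg'
    have hrel : g' * hH.d t' = hH.d t * g' := by
      rw [hck] at h
      calc g' * hH.d t' = k⁻¹ * (g * (galHom hE c k * hH.d t' * (galHom hE c k)⁻¹)) * galHom hE c k := by
            rw [hg']; group
        _ = k⁻¹ * (k * hH.d t * k⁻¹ * g) * galHom hE c k := by rw [h]
        _ = hH.d t * g' := by rw [hg']; group
    have hfix : ∀ p, hH.d t' • p = p → g' • p = oInf F 1 ∨ g' • p = oPt 1 0 0 := fun p hp =>
      hH.d_fix_cases ht (by rw [← mul_smul, ← hrel, mul_smul, hp])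
    have hne : g' • oInf F 1 ≠ g' • oPt 1 (0 : F) 0 := fun e =>
      oPt_ne_oInf _ _ (MulAction.injective g' e).symm
    have h7 : t ^ 7 = 1 := by
      have := orderOf_dvd_natCard t
      rw [hH.card_units] at this
      exact orderOf_dvd_iff_pow_eq_one.1 (by simpa using this)
    have hcase : t' = t ∨ t' = t⁻¹ := by
      rcases hfix _ (hH.d_smul_inf t') with e1 | e1 <;> rcases hfix _ (hH.d_smul_zero t') with e2 | e2
      · exact absurd (e1.trans e2.symm) hne
      · obtain ⟨s, hs⟩ := hH.mem_d_of_fix e1 e2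
        rw [hs, hH.d_mul, hH.d_mul, mul_comm t s] at hrel
        exact Or.inl (mul_left_cancel (hH.d_injective hrel))
      · obtain ⟨s, hs⟩ := hH.swap_eq e1 e2
        right
        have h2 : hH.d s * hH.d t' = hH.w * hH.d t * hH.w * hH.d s := by
          calc hH.d s * hH.d t' = hH.w * hH.w * (hH.d s * hH.d t') := by rw [hH.w_mul_self, one_mul]
            _ = hH.w * (g' * hH.d t') := by rw [hs]; group
            _ = _ := by rw [hrel, hs]; group
        rw [hH.w_d, hH.d_mul, hH.d_mul, mul_comm t⁻¹ s] at h2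
        exact mul_left_cancel (hH.d_injective h2)
      · exact absurd (e1.trans e2.symm) hne
    have hval : (t' : Fˣ) = t ^ 2 ∨ t' = t ^ 4 := (hE.gal_cases hc).imp
      (fun hx => Units.ext (hx t)) (fun hx => Units.ext (hx t))
    have hdvd := orderOf_dvd_iff_pow_eq_one.2 h7
    apply ht
    rw [← orderOf_eq_one_iff]
    have key : ∀ j, t ^ j = 1 → Nat.gcd 7 j = 1 → orderOf t = 1 := fun j hj hg =>
      Nat.eq_one_of_dvd_coprimes hg hdvd (orderOf_dvd_of_pow_eq_one hj)
    rcases hval with e | e <;> rcases hcase with e' | e' <;> rw [e] at e'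
    · exact key 1 (by rw [pow_one]; exact mul_left_cancel (a := t) (by rw [← sq, e', mul_one])) (by norm_num)
    · exact key 3 (by rw [pow_succ, e', inv_mul_cancel]) (by norm_num)
    · exact key 3 (mul_left_cancel (a := t) (by rw [← pow_succ', e', mul_one])) (by norm_num)
    · exact key 5 (by rw [pow_succ, e', inv_mul_cancel]) (by norm_num)
  · have := hH.orderOf_dvd_qq ha1 hfree
    rw [ha] at this
    norm_num [qq] at this

theorem eq_one_of_twist_thirteen {a g : Cfsg.Sz F 1} (hE : Eight F) {c : Gal8 F} (hc : c ≠ 1)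
    (ha : orderOf a = 13) (h : g * galHom hE c a = a * g) : False := by
  have hA : (mat F 1 a) ^ 13 = 1 := by rw [← map_pow, ← ha, pow_orderOf_eq_one, map_one]
  have hA1 : mat F 1 a ≠ 1 := fun e => by
    rw [← map_one (mat F 1)] at e
    simp [mat_injective e] at ha
  have hg : IsUnit (mat F 1 g) := IsUnit.map (mat F 1) (Group.isUnit g)
  have hc' : mat F 1 g * (mat F 1 a).map ((c : F ≃+* F) : F →+* F) =
      mat F 1 a * mat F 1 g := by
    rw [← map_mul, ← h, map_mul]
    rfl
  have hfix := map_eq_of_conj hE.card ((c : F ≃+* F) : F →+* F) hA hA1 hg hc'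
  apply map_minpoly_ne hE.card (frob F) frob_apply hA hA1
  rcases hE.gal_cases hc with hx | hx
  · rwa [show ((c : F ≃+* F) : F →+* F) = (frob F : F →+* F) from RingHom.ext fun x => hx x] at hfix
  · rw [show (frob F : F →+* F) = ((c : F ≃+* F) : F →+* F).comp ((c : F ≃+* F) : F →+* F) from
      RingHom.ext fun x => by
        show x ^ 2 = (c : F ≃+* F) ((c : F ≃+* F) x)
        rw [hx, hx, ← pow_mul, show 4 * 4 = 8 + 8 by norm_num, pow_add, hE.pow_eight, sq],
      ← Polynomial.map_map, hfix, hfix]

theorem right_eq_one {q : AutSz hE} {r : ℕ} (hr : r = 7 ∨ r = 13) (hq : q ^ r = 1) : q.right = 1 := by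
  have h1 : q.right ^ r = 1 := by
    rw [← SemidirectProduct.rightHom_eq_right, ← map_pow, hq, map_one]
  have h2 := orderOf_dvd_natCard q.right
  rw [hE.card_gal] at h2
  rw [← orderOf_eq_one_iff]
  refine Nat.eq_one_of_dvd_coprimes ?_ h2 (orderOf_dvd_of_pow_eq_one h1)
  rcases hr with rfl | rfl <;> norm_num

theorem pow_eq_one_of_commute {x y : AutSz hE} {r : ℕ} (hr : r = 7 ∨ r = 13) (hx : orderOf x = r)
    (hxy : Commute x y) : y ^ r = 1 := by
  have hH := hE.hyp
  have := hH.finite_group
  have hxr := right_eq_one hE hr (hx ▸ pow_orderOf_eq_one x)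
  obtain ⟨a, rfl⟩ : ∃ a, x = SemidirectProduct.inl a :=
    ⟨x.left, SemidirectProduct.ext rfl hxr⟩
  rw [orderOf_injective _ SemidirectProduct.inl_injective] at hx
  have hrel : y.left * galHom hE y.right a = a * y.left := by
    have := congrArg SemidirectProduct.left hxy.eq
    simpa using this.symm
  by_cases hc : y.right = 1
  · obtain ⟨g, rfl⟩ : ∃ g, y = SemidirectProduct.inl g :=
      ⟨y.left, SemidirectProduct.ext rfl hc⟩
    have ha1 : a ≠ 1 := fun e => by rcases hr with rfl | rfl <;> simp [e] at hx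
    have hodd : Odd (orderOf a) := by rw [hx]; rcases hr with rfl | rfl <;> decide
    have hmem : Nat.card (Subgroup.centralizer ({a} : Set (Cfsg.Sz F 1))) = r := by
      have h1 := hH.centralizer_card_mem ha1 hodd
      have h2 := Subgroup.orderOf_dvd_natCard (Subgroup.centralizer ({a} : Set (Cfsg.Sz F 1)))
        (Subgroup.mem_centralizer_singleton_iff.2 rfl)
      rw [hx] at h2
      simp only [Set.mem_insert_iff, Set.mem_singleton_iff] at h1
      rcases h1 with e | e | e <;> rw [e] at h2 ⊢ <;> rcases hr with rfl | rfl <;> first | rfl | norm_num at h2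
    have hg : g ∈ Subgroup.centralizer ({a} : Set (Cfsg.Sz F 1)) := by
      rw [Subgroup.mem_centralizer_singleton_iff]
      simpa using hrel
    have := pow_card_eq_one' (x := (⟨g, hg⟩ : Subgroup.centralizer ({a} : Set (Cfsg.Sz F 1))))
    rw [hmem] at this
    rw [← map_pow, show g ^ r = 1 from congrArg Subtype.val this, map_one]
  · rcases hr with rfl | rfl
    · exact (eq_one_of_twist_seven hE hc hx hrel).elim
    · exact (eq_one_of_twist_thirteen hE hc hx hrel).elim

end CfsgLib.PrimeGraphSp63
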