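import Cfsg.Prelude.Def_Classical
import Cfsg.Agent.Lib.SympPrimeAdj.Main
import Cfsg.Agent.Lib.PrimeGraphSp63.Commutant
import Cfsg.Agent.Lib.PrimeGraphSp63.Elements

/-!
Element orders in `PSp 3 F` for the field with three elements.
-/

set_option autoImplicit false
set_option linter.unusedSectionVars false

namespace CfsgLib.PrimeGraphSp63

open Matrix Polynomial CfsgLib.ClassicalLinear CfsgLib.SympPrimeAdj

variable {F : Type*} [Field F] [Fintype F] (hF : Fintype.card F = 3)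

include hF

theorem charP_three : CharP F 3 := by
  obtain ⟨p, hp⟩ := CharP.exists F
  haveI := Fact.mk (CharP.char_is_prime F p)
  obtain ⟨a, hp', hc⟩ := FiniteField.card F p
  have : p ∣ 3 := hF ▸ hc ▸ dvd_pow_self p a.2.ne'
  rwa [(Nat.prime_dvd_prime_iff_eq hp' Nat.prime_three).1 this] at hp

theorem card_sp63 : Nat.card (Matrix.symplecticGroup (Fin 3) F) = 3 ^ 9 * 465920 := by
  rw [card_sp, hF]
  norm_num [Finset.prod_range_succ]

theorem card_center63 : Nat.card (Subgroup.center (Matrix.symplecticGroup (Fin 3) F)) = 2 := by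
  rw [card_center_sp (by norm_num), hF]
  norm_num

theorem card_psp63 : Nat.card (Cfsg.PSp 3 F) = 3 ^ 9 * 232960 := by
  have h := Subgroup.card_eq_card_quotient_mul_card_subgroup
    (Subgroup.center (Matrix.symplecticGroup (Fin 3) F))
  rw [card_sp63 hF, card_center63 hF] at h
  change Nat.card (Matrix.symplecticGroup (Fin 3) F ⧸ _) = _
  omega

theorem fix_free (x : Matrix.symplecticGroup (Fin 3) F) {r : ℕ} (hr : r = 7 ∨ r = 13) (hx : orderOf x = r)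
    (v : Fin 3 ⊕ Fin 3 → F) (hv : (x : Matrix (Fin 3 ⊕ Fin 3) (Fin 3 ⊕ Fin 3) F) *ᵥ v = v) : v = 0 := by
  by_contra hv0
  have hmem : x ∈ MulAction.stabilizer (Matrix.symplecticGroup (Fin 3) F) v := hv
  have h1 := Subgroup.orderOf_dvd_natCard _ hmem
  rw [hx, card_stab (m := 2) hv0, card_sp, hF] at h1
  norm_num [Finset.prod_range_succ] at h1
  rcases hr with rfl | rfl <;> norm_num at h1

theorem coe_inv_mul_J (g : Matrix.symplecticGroup (Fin 3) F) :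
    ((g⁻¹ : Matrix.symplecticGroup (Fin 3) F) : Matrix _ _ F) * Matrix.J (Fin 3) F =
      Matrix.J (Fin 3) F * (g : Matrix (Fin 3 ⊕ Fin 3) (Fin 3 ⊕ Fin 3) F)ᵀ := by
  have h1 := SymplecticGroup.mem_iff.1 g.2
  have h2 : ((g⁻¹ : Matrix.symplecticGroup (Fin 3) F) : Matrix (Fin 3 ⊕ Fin 3) (Fin 3 ⊕ Fin 3) F) * g = 1 :=
    congrArg Subtype.val (inv_mul_cancel g)
  calc ((g⁻¹ : Matrix.symplecticGroup (Fin 3) F) : Matrix (Fin 3 ⊕ Fin 3) (Fin 3 ⊕ Fin 3) F) *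
        Matrix.J (Fin 3) F
      = ((g⁻¹ : Matrix.symplecticGroup (Fin 3) F) : Matrix (Fin 3 ⊕ Fin 3) (Fin 3 ⊕ Fin 3) F) *
        ((g : Matrix (Fin 3 ⊕ Fin 3) (Fin 3 ⊕ Fin 3) F) * Matrix.J (Fin 3) F * (g : Matrix (Fin 3 ⊕ Fin 3) (Fin 3 ⊕ Fin 3) F)ᵀ) := by
        rw [h1]
    _ = _ := by rw [← Matrix.mul_assoc, ← Matrix.mul_assoc, h2, Matrix.one_mul]

theorem aeval_inv (g : Matrix.symplecticGroup (Fin 3) F) (P : F[X]) {B : Matrix.symplecticGroup (Fin 3) F}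
    (hB : aeval (g : Matrix (Fin 3 ⊕ Fin 3) (Fin 3 ⊕ Fin 3) F) P = B) :
    aeval ((g⁻¹ : Matrix.symplecticGroup (Fin 3) F) : Matrix (Fin 3 ⊕ Fin 3) (Fin 3 ⊕ Fin 3) F) P =
      (B⁻¹ : Matrix.symplecticGroup (Fin 3) F) := by
  have h1 := Six.intertwine P (coe_inv_mul_J hF g)
  rw [Six.aeval_transpose, hB, ← coe_inv_mul_J hF B] at h1
  have hJ : Matrix.J (Fin 3) F * (-Matrix.J (Fin 3) F) = 1 := by
    rw [Matrix.mul_neg, Matrix.J_squared, neg_neg]
  have h2 := congrArg (· * (-Matrix.J (Fin 3) F)) h1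
  simpa only [Matrix.mul_assoc, hJ, Matrix.mul_one] using h2

theorem coe_pow_eq {x : Matrix.symplecticGroup (Fin 3) F} {r : ℕ} (hx : orderOf x = r) :
    (x : Matrix (Fin 3 ⊕ Fin 3) (Fin 3 ⊕ Fin 3) F) ^ r = 1 := by
  rw [← SubmonoidClass.coe_pow, ← hx, pow_orderOf_eq_one]
  rfl

theorem coe_inv_eq {x : Matrix.symplecticGroup (Fin 3) F} {r : ℕ} (hr : 0 < r) (hx : orderOf x = r) :
    ((x⁻¹ : Matrix.symplecticGroup (Fin 3) F) : Matrix (Fin 3 ⊕ Fin 3) (Fin 3 ⊕ Fin 3) F) =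
      (x : Matrix (Fin 3 ⊕ Fin 3) (Fin 3 ⊕ Fin 3) F) ^ (r - 1) := by
  rw [← SubmonoidClass.coe_pow]
  congr 1
  refine inv_eq_of_mul_eq_one_right ?_
  rw [← pow_succ', Nat.sub_add_cancel hr, ← hx, pow_orderOf_eq_one]

/-- the commutant of an element of order seven or thirteen -/
theorem poly_of_commute (x B : Matrix.symplecticGroup (Fin 3) F) {r : ℕ} (hr : r = 7 ∨ r = 13)
    (hx : orderOf x = r) (hc : Commute x B) :
    Six.Cyc (x : Matrix (Fin 3 ⊕ Fin 3) (Fin 3 ⊕ Fin 3) F) r ∧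
      ∃ P : F[X], aeval (x : Matrix (Fin 3 ⊕ Fin 3) (Fin 3 ⊕ Fin 3) F) P = B ∧
      aeval ((x : Matrix (Fin 3 ⊕ Fin 3) (Fin 3 ⊕ Fin 3) F) ^ (r - 1)) P =
        (B⁻¹ : Matrix.symplecticGroup (Fin 3) F) := by
  have hr0 : 0 < r := by rcases hr with rfl | rfl <;> norm_num
  have hcyc : Six.Cyc (x : Matrix (Fin 3 ⊕ Fin 3) (Fin 3 ⊕ Fin 3) F) r := by
    refine Six.cyc hF (by simp) hr (coe_pow_eq hF hx) (fix_free hF x hr hx) ?_
    rw [← coe_inv_eq hF hr0 hx]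
    have h1 := Six.intertwine (minpoly F (x : Matrix (Fin 3 ⊕ Fin 3) (Fin 3 ⊕ Fin 3) F)) (coe_inv_mul_J hF x)
    rw [Six.aeval_transpose, minpoly.aeval, Matrix.transpose_zero, Matrix.mul_zero] at h1
    have h2 := congrArg (· * (-Matrix.J (Fin 3) F)) h1
    simpa only [Matrix.mul_assoc, Matrix.mul_neg, Matrix.J_squared, neg_neg, Matrix.mul_one,
      Matrix.zero_mul, neg_zero] using h2
  obtain ⟨v, hv⟩ := hcyc.cyclic
  obtain ⟨P, hP⟩ := Six.commutant _ v hcyc.deg hv (B := (B : Matrix (Fin 3 ⊕ Fin 3) (Fin 3 ⊕ Fin 3) F))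
    (congrArg Subtype.val hc.eq.symm)
  exact ⟨hcyc, P, hP.symm, by rw [← coe_inv_eq hF hr0 hx]; exact aeval_inv hF x P hP.symm⟩

theorem pow_of_commute_seven (x B : Matrix.symplecticGroup (Fin 3) F) (hx : orderOf x = 7)
    (hc : Commute x B) : B ^ 28 = 1 := by
  obtain ⟨-, P, hP, hP'⟩ := poly_of_commute hF x B (Or.inl rfl) hx hc
  have h := Six.aeval_pow_three hF (x : Matrix (Fin 3 ⊕ Fin 3) (Fin 3 ⊕ Fin 3) F) P 3
  rw [show 3 ^ 3 = 7 * 3 + (7 - 1) by norm_num, pow_add, pow_mul, coe_pow_eq hF hx, one_pow, one_mul, hP', hP,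
    ← SubmonoidClass.coe_pow] at h
  rw [show 28 = 7 * 3 + (7 - 1) + 1 by norm_num, pow_succ, ← Subtype.ext h, inv_mul_cancel]

theorem pow_of_commute_thirteen (x B : Matrix.symplecticGroup (Fin 3) F) (hx : orderOf x = 13)
    (hc : Commute x B) : B ^ 26 = 1 := by
  obtain ⟨-, P, hP, -⟩ := poly_of_commute hF x B (Or.inr rfl) hx hc
  have h := Six.aeval_pow_three hF (x : Matrix (Fin 3 ⊕ Fin 3) (Fin 3 ⊕ Fin 3) F) P 3
  rw [show 3 ^ 3 = 13 * 2 + 1 by norm_num, pow_succ, pow_mul, coe_pow_eq hF hx, one_pow, one_mul, hP,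
    ← SubmonoidClass.coe_pow] at h
  have h' := Subtype.ext h
  rw [pow_succ] at h'
  exact mul_eq_right.1 h'.symm

theorem involution_central (x B : Matrix.symplecticGroup (Fin 3) F) (hx : orderOf x = 13)
    (hc : Commute x B) (hB : B ^ 2 = 1) :
    (B : Matrix (Fin 3 ⊕ Fin 3) (Fin 3 ⊕ Fin 3) F) = 1 ∨ (B : Matrix (Fin 3 ⊕ Fin 3) (Fin 3 ⊕ Fin 3) F) = -1 := by
  obtain ⟨hcyc, P, hP, hP'⟩ := poly_of_commute hF x B (Or.inr rfl) hx hc
  obtain ⟨K, _, _, y, hy⟩ := hcyc.roots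
  set M := (x : Matrix (Fin 3 ⊕ Fin 3) (Fin 3 ⊕ Fin 3) F)
  have hinv : B⁻¹ = B := inv_eq_of_mul_eq_one_right (by rw [← sq, hB])
  rw [hinv] at hP'
  have h1 : minpoly F M ∣ P.comp (X ^ (13 - 1)) - P :=
    minpoly.dvd F M (by rw [map_sub, aeval_comp, map_pow, aeval_X, hP', hP, sub_self])
  have h2 : minpoly F M ∣ P ^ 2 - 1 := minpoly.dvd F M (by
    rw [map_sub, map_pow, hP, map_one, ← SubmonoidClass.coe_pow, hB]
    exact sub_self _)
  obtain ⟨e1, -⟩ := (hy _).1 h1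
  obtain ⟨e2, -⟩ := (hy _).1 h2
  rw [map_sub, aeval_comp, map_pow, aeval_X, sub_eq_zero] at e1
  rw [map_sub, map_pow, map_one, sub_eq_zero, sq_eq_one_iff] at e2
  rcases e2 with e | e
  · left
    have hd : minpoly F M ∣ P - 1 := (hy _).2
      ⟨by rw [map_sub, map_one, e, sub_self], by rw [map_sub, map_one, e1, e, sub_self]⟩
    have h := aeval_eq_zero_of_dvd_aeval_eq_zero hd (minpoly.aeval F M)
    rwa [map_sub, map_one, hP, sub_eq_zero] at h
  · right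
    have hd : minpoly F M ∣ P + 1 := (hy _).2
      ⟨by rw [map_add, map_one, e, neg_add_cancel], by rw [map_add, map_one, e1, e, neg_add_cancel]⟩
    have h := aeval_eq_zero_of_dvd_aeval_eq_zero hd (minpoly.aeval F M)
    rwa [map_add, map_one, hP, add_eq_zero_iff_eq_neg] at h

theorem no_order_lift {r s : ℕ} (hrs : Nat.Coprime 2 (r * s)) (hr : r = 7 ∨ r = 13)
    (hs : s.Prime) (hsr : s ≠ r) (hs28 : r = 7 → ¬ s ∣ 28) (hs26 : r = 13 → ¬ s ∣ 26)
    (g : Cfsg.PSp 3 F) : orderOf g ≠ r * s := by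
  intro hg
  obtain ⟨G, hG⟩ : r * s ∈ Set.range (orderOf : Matrix.symplecticGroup (Fin 3) F → ℕ) :=
    (mem_range_orderOf_quotient_iff _ (by rw [card_center63 hF]; exact hrs)).1 ⟨g, hg⟩
  have hr0 : 0 < r := by rcases hr with rfl | rfl <;> norm_num
  have hx : orderOf (G ^ s) = r := by
    rw [orderOf_pow' _ hs.ne_zero, hG, Nat.gcd_mul_left_left, Nat.mul_div_cancel _ hs.pos]
  have hy : orderOf (G ^ r) = s := by
    rw [orderOf_pow' _ hr0.ne', hG, Nat.gcd_mul_right_left, Nat.mul_div_cancel_left _ hr0]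
  have hc : Commute (G ^ s) (G ^ r) := (Commute.refl G).pow_pow s r
  rcases hr with rfl | rfl
  · exact hs28 rfl (hy ▸ orderOf_dvd_of_pow_eq_one (pow_of_commute_seven hF _ _ hx hc))
  · exact hs26 rfl (hy ▸ orderOf_dvd_of_pow_eq_one (pow_of_commute_thirteen hF _ _ hx hc))

theorem no_twentysix (g : Cfsg.PSp 3 F) : orderOf g ≠ 26 := by
  intro hg
  obtain ⟨G, rfl⟩ := QuotientGroup.mk_surjective g
  set Z := Subgroup.center (Matrix.symplecticGroup (Fin 3) F)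
  have hZ : ∀ k, G ^ k ∈ Z ↔ 26 ∣ k := fun k => by
    rw [← QuotientGroup.eq_one_iff, QuotientGroup.mk_pow, ← orderOf_dvd_iff_pow_eq_one, hg]
  have hZ2 : ∀ z ∈ Z, z ^ 2 = 1 := fun z hz => by
    have h := pow_card_eq_one' (x := (⟨z, hz⟩ : Z))
    rw [card_center63 hF] at h
    exact congrArg Subtype.val h
  have h52 : G ^ 52 = 1 := by rw [show 52 = 26 * 2 from rfl, pow_mul]; exact hZ2 _ ((hZ 26).2 dvd_rfl)
  have hx : orderOf (G ^ 4) = 13 := by
    haveI := Fact.mk (show Nat.Prime 13 by norm_num)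
    refine orderOf_eq_prime (by rw [← pow_mul]; exact h52) fun h => ?_
    have := (hZ 4).1 (h ▸ Z.one_mem)
    norm_num at this
  have hc : Commute (G ^ 4) (G ^ 13) := (Commute.refl G).pow_pow 4 13
  have h26 := pow_of_commute_thirteen hF _ _ hx hc
  have hsq : (G ^ 13) ^ 2 ∈ Z := by rw [← pow_mul]; exact (hZ _).2 dvd_rfl
  have h2 : (G ^ 13) ^ 2 = 1 := by
    have h3 : ((G ^ 13) ^ 2) ^ 13 = 1 := by rw [← pow_mul]; exact h26
    have h4 := hZ2 _ hsq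
    calc (G ^ 13) ^ 2 = ((G ^ 13) ^ 2) ^ 13 * (((G ^ 13) ^ 2) ^ 2) ^ (6 : ℕ) * ((((G ^ 13) ^ 2) ^ 2) ^ 12)⁻¹ := by
          group
      _ = 1 := by rw [h3, h4]; simp
  rcases involution_central hF _ _ hx hc h2 with h | h
  · have h13 : G ^ 13 ∈ Z := mem_center_of_eq_or_neg (Or.inl h)
    have := (hZ 13).1 h13
    norm_num at this
  · have h13 : G ^ 13 ∈ Z := mem_center_of_eq_or_neg (Or.inr h)
    have := (hZ 13).1 h13
    norm_num at this

theorem no_char_order {r : ℕ} (hr : r = 7 ∨ r = 13) (g : Cfsg.PSp 3 F) : orderOf g ≠ r * 3 := by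
  intro hg
  haveI := charP_three hF
  haveI := Fact.mk Nat.prime_three
  obtain ⟨G, hG⟩ : r * 3 ∈ Set.range (orderOf : Matrix.symplecticGroup (Fin 3) F → ℕ) :=
    (mem_range_orderOf_quotient_iff _ (by
      rw [card_center63 hF]; rcases hr with rfl | rfl <;> norm_num)).1 ⟨g, hg⟩
  rcases hr with rfl | rfl
  · have hk : orderOf ((Fintype.card F : ℕ) : ZMod 7) = 6 := by
      rw [hF]; exact (orderOf_eq_iff (by norm_num)).2 ⟨by decide, by decide⟩
    exact not_mem_range (F := F) 3 7 (by norm_num) (by norm_num) (by norm_num) (m := 2) (η := 3)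
      (by norm_num) (Or.inr ⟨by rw [hk]; decide, by rw [hk]⟩) (by norm_num) ⟨G, hG⟩
  · have hk : orderOf ((Fintype.card F : ℕ) : ZMod 13) = 3 := by
      rw [hF]; exact (orderOf_eq_iff (by norm_num)).2 ⟨by decide, by decide⟩
    exact not_mem_range (F := F) 3 13 (by norm_num) (by norm_num) (by norm_num) (m := 2) (η := 3)
      (by norm_num) (Or.inl ⟨by rw [hk]; decide, by rw [hk]⟩) (by norm_num) ⟨G, hG⟩

theorem exists_of_matrix (A : Mat63) (hA : A ∈ Matrix.symplecticGroup (Fin 3) (ZMod 3)) (N : ℕ)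
    (hN : 0 < N) (h1 : A ^ N = 1 ∨ A ^ N = -1)
    (h2 : ∀ p : ℕ, p.Prime → p ∣ N → A ^ (N / p) ≠ 1 ∧ A ^ (N / p) ≠ -1) :
    ∃ g : Cfsg.PSp 3 F, orderOf g = N := by
  haveI := charP_three hF
  let f : ZMod 3 →+* F := ZMod.castHom dvd_rfl F
  have hinj : Function.Injective f.mapMatrix (α := Mat63) := Matrix.map_injective f.injective
  have hmem : f.mapMatrix A ∈ Matrix.symplecticGroup (Fin 3) F := by
    have hJ : Matrix.J (Fin 3) F = f.mapMatrix (Matrix.J (Fin 3) (ZMod 3)) := by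
      ext (i | i) (j | j) <;> simp [Matrix.J, Matrix.one_apply, apply_ite f, apply_ite Neg.neg]
    rw [SymplecticGroup.mem_iff] at hA ⊢
    rw [hJ]
    conv_rhs => rw [← hA, map_mul, map_mul]
    rw [RingHom.mapMatrix_apply, RingHom.mapMatrix_apply, RingHom.mapMatrix_apply, Matrix.transpose_map]
  let G : Matrix.symplecticGroup (Fin 3) F := ⟨f.mapMatrix A, hmem⟩
  have hiff : ∀ k, (QuotientGroup.mk G : Cfsg.PSp 3 F) ^ k = 1 ↔ (A ^ k = 1 ∨ A ^ k = -1) := fun k => by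
    rw [← QuotientGroup.mk_pow, QuotientGroup.eq_one_iff, mem_center_sp_iff (by norm_num)]
    rw [SubmonoidClass.coe_pow]
    show f.mapMatrix A ^ k = 1 ∨ f.mapMatrix A ^ k = -1 ↔ _
    rw [← map_pow, ← map_one f.mapMatrix, ← map_neg, hinj.eq_iff, hinj.eq_iff]
  refine ⟨QuotientGroup.mk G, orderOf_eq_of_pow_and_pow_div_prime hN ((hiff N).2 h1) fun p hp hd h => ?_⟩
  rcases (hiff _).1 h with e | e
  · exact (h2 p hp hd).1 e
  · exact (h2 p hp hd).2 e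

theorem exists_orders : (∃ g : Cfsg.PSp 3 F, orderOf g = 6) ∧ (∃ g : Cfsg.PSp 3 F, orderOf g = 10) ∧
    (∃ g : Cfsg.PSp 3 F, orderOf g = 14) ∧ ∃ g : Cfsg.PSp 3 F, orderOf g = 15 := by
  refine ⟨exists_of_matrix hF el6 el6_mem 6 (by norm_num) el6_pow.1 ?_,
    exists_of_matrix hF el10 el10_mem 10 (by norm_num) el10_pow.1 ?_,
    exists_of_matrix hF el14 el14_mem 14 (by norm_num) el14_pow.1 ?_,
    exists_of_matrix hF el15 el15_mem 15 (by norm_num) el15_pow.1 ?_⟩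
  · obtain ⟨-, a, b, c, d⟩ := el6_pow
    intro p hp hd
    rcases (Nat.Prime.dvd_mul hp).1 (show p ∣ 2 * 3 from hd) with e | e
    · rw [(Nat.prime_dvd_prime_iff_eq hp (by norm_num)).1 e]; exact ⟨a, b⟩
    · rw [(Nat.prime_dvd_prime_iff_eq hp (by norm_num)).1 e]; exact ⟨c, d⟩
  · obtain ⟨-, a, b, c, d⟩ := el10_pow
    intro p hp hd
    rcases (Nat.Prime.dvd_mul hp).1 (show p ∣ 2 * 5 from hd) with e | e
    · rw [(Nat.prime_dvd_prime_iff_eq hp (by norm_num)).1 e]; exact ⟨a, b⟩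
    · rw [(Nat.prime_dvd_prime_iff_eq hp (by norm_num)).1 e]; exact ⟨c, d⟩
  · obtain ⟨-, a, b, c, d⟩ := el14_pow
    intro p hp hd
    rcases (Nat.Prime.dvd_mul hp).1 (show p ∣ 2 * 7 from hd) with e | e
    · rw [(Nat.prime_dvd_prime_iff_eq hp (by norm_num)).1 e]; exact ⟨a, b⟩
    · rw [(Nat.prime_dvd_prime_iff_eq hp (by norm_num)).1 e]; exact ⟨c, d⟩
  · obtain ⟨-, a, b, c, d⟩ := el15_pow
    intro p hp hd
    rcases (Nat.Prime.dvd_mul hp).1 (show p ∣ 3 * 5 from hd) with e | e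
    · rw [(Nat.prime_dvd_prime_iff_eq hp (by norm_num)).1 e]; exact ⟨a, b⟩
    · rw [(Nat.prime_dvd_prime_iff_eq hp (by norm_num)).1 e]; exact ⟨c, d⟩

end CfsgLib.PrimeGraphSp63
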