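import Cfsg.Agent.Lib.PrimeGraphSp63.Model

/-!
The prime graph of the witness groups.
-/

set_option autoImplicit false
set_option linter.unusedSectionVars false

namespace CfsgLib.PrimeGraphSp63

open Matrix CfsgLib.Suzuki

theorem exists_commuting {G : Type*} [Group G] {g : G} {r s : ℕ} (hg : orderOf g = r * s)
    (hr : 0 < r) (hs : 0 < s) :
    ∃ x y : G, orderOf x = r ∧ orderOf y = s ∧ Commute x y := by
  refine ⟨g ^ s, g ^ r, ?_, ?_, (Commute.refl g).pow_pow s r⟩
  · rw [orderOf_pow' _ hs.ne', hg, Nat.gcd_mul_left_left, Nat.mul_div_cancel _ hs]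
  · rw [orderOf_pow' _ hr.ne', hg, Nat.gcd_mul_right_left, Nat.mul_div_cancel_left _ hr]

variable {F : Type*} [Field F] [Finite F] [CharP F 2] (hE : Eight F)

theorem act_apply (q : AutSz hE) (X : Mod F) (c : Gal8 F) :
    act hE q X c = tw (c : F ≃+* F) q.left * X (c * q.right) *
      (tw ((c * gen F : Gal8 F) : F ≃+* F) q.left)ᵀ := rfl

theorem moduleHom_apply (n : ℕ) (q : AutSz hE) (v : Multiplicative (Fin n → Mod F)) (i : Fin n) :
    (moduleHom hE n q v).toAdd i = act hE q (v.toAdd i) := rfl

theorem kernel_sq {n : ℕ} (v : Multiplicative (Fin n → Mod F)) : v ^ 2 = 1 := by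
  apply Multiplicative.toAdd.injective
  refine funext fun i => funext fun c => Matrix.ext fun a b => ?_
  show (2 • v.toAdd) i c a b = 0
  simp [CharTwo.two_eq_zero]

theorem no_edge {n : ℕ} {x y : Wit hE n} {r s : ℕ} (hr : r = 7 ∨ r = 13) (hx : orderOf x = r)
    (hs : s.Prime) (hy : orderOf y = s) (hsr : s ≠ r) (h2 : r = 13 ∨ s ≠ 2)
    (hxy : Commute x y) : False := by
  have hrp : r.Prime := by rcases hr with rfl | rfl <;> norm_num
  have hπx : orderOf (SemidirectProduct.rightHom x) = r := by
    have := Fact.mk hrp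
    refine orderOf_eq_prime (by rw [← map_pow, ← hx, pow_orderOf_eq_one, map_one]) fun h => ?_
    obtain ⟨v, rfl⟩ : ∃ v, x = SemidirectProduct.inl v := ⟨x.left, SemidirectProduct.ext rfl h⟩
    have h1 : (SemidirectProduct.inl v : Wit hE n) ^ 2 = 1 := by
      rw [← map_pow, kernel_sq, map_one]
    have := (Nat.prime_dvd_prime_iff_eq hrp Nat.prime_two).1 (hx ▸ orderOf_dvd_of_pow_eq_one h1)
    omega
  have hπy : SemidirectProduct.rightHom y = 1 := by
    have h1 := pow_eq_one_of_commute hE hr hπx (hxy.map SemidirectProduct.rightHom)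
    have h3 : SemidirectProduct.rightHom y ^ s = 1 := by
      rw [← map_pow, ← hy, pow_orderOf_eq_one, map_one]
    exact orderOf_eq_one_iff.1 (Nat.eq_one_of_dvd_coprimes ((Nat.coprime_primes hs hrp).2 hsr)
      (orderOf_dvd_of_pow_eq_one h3) (orderOf_dvd_of_pow_eq_one h1))
  obtain ⟨v, rfl⟩ : ∃ v, y = SemidirectProduct.inl v := ⟨y.left, SemidirectProduct.ext rfl hπy⟩
  have hs2 : s = 2 := by
    rw [← hy]
    refine ((Nat.prime_dvd_prime_iff_eq (hy ▸ hs) Nat.prime_two).1 (orderOf_dvd_of_pow_eq_one ?_))
    rw [← map_pow, kernel_sq, map_one]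
  obtain rfl : r = 13 := h2.resolve_right (not_not.2 hs2)
  have hqr := right_eq_one hE (Or.inr rfl) (hπx ▸ pow_orderOf_eq_one _ :
    SemidirectProduct.rightHom x ^ 13 = 1)
  set q := SemidirectProduct.rightHom x with hq
  obtain ⟨a, ha⟩ : ∃ a, q = SemidirectProduct.inl a := ⟨q.left, SemidirectProduct.ext rfl hqr⟩
  rw [ha, orderOf_injective _ SemidirectProduct.inl_injective] at hπx
  have hfix : moduleHom hE n q v = v := by
    have h := congrArg SemidirectProduct.left hxy.eq
    simp only [SemidirectProduct.mul_left, SemidirectProduct.left_inl, SemidirectProduct.right_inl,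
      map_one, MulAut.one_apply] at h
    rw [mul_comm v] at h
    exact mul_left_cancel h
  have hv : v = 1 := by
    apply Multiplicative.toAdd.injective
    funext i
    funext c
    have h := congrFun (congrArg (fun w : Multiplicative (Fin n → Mod F) => Multiplicative.toAdd w i) hfix) c
    simp only [moduleHom_apply, ha, act_apply, SemidirectProduct.left_inl,
      SemidirectProduct.right_inl, mul_one] at h
    refine eq_zero_of_fixed hE.card (frob F) frob_apply (A := tw (c : F ≃+* F) a) ?_ ?_ ?_
    · rw [← map_pow, ← hπx, pow_orderOf_eq_one, map_one]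
    · intro e
      have e' : (mat F 1 a).map (c : F ≃+* F) = (1 : Matrix (Fin 4) (Fin 4) F).map (c : F ≃+* F) :=
        e.trans (by simp)
      have := Matrix.map_injective (c : F ≃+* F).injective e'
      rw [← map_one (mat F 1)] at this
      rw [mat_injective this, orderOf_one] at hπx
      omega
    · have hc : (tw (c : F ≃+* F) a).map (frob F) = tw ((c * gen F : Gal8 F) : F ≃+* F) a := by
        rw [gal_comm]
        rfl
      rw [hc]
      exact h
  rw [hv, map_one, orderOf_one] at hy
  exact hs.ne_one hy.symm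

theorem no_order {n : ℕ} {r s : ℕ} (hr : r = 7 ∨ r = 13) (hs : s.Prime) (hsr : s ≠ r)
    (h2 : r = 13 ∨ s ≠ 2) (g : Wit hE n) : orderOf g ≠ r * s := fun hg => by
  obtain ⟨x, y, hx, hy, hxy⟩ := exists_commuting hg (by rcases hr with rfl | rfl <;> norm_num) hs.pos
  exact no_edge hE hr hx hs hy hsr h2 hxy

theorem order_mul_of_fixed {n : ℕ} {q : AutSz hE} {X : Mod F} (hn : 0 < n) (hX : X ≠ 0)
    (hfix : act hE q X = X) {k : ℕ} (hq : orderOf q = k) (hk : Odd k) :
    ∃ g : Wit hE n, orderOf g = 2 * k := by
  let v : Multiplicative (Fin n → Mod F) := Multiplicative.ofAdd fun _ => X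
  have hv : orderOf v = 2 := by
    have := Fact.mk Nat.prime_two
    refine orderOf_eq_prime (kernel_sq v) fun h => hX ?_
    exact congrFun (congrArg Multiplicative.toAdd h) ⟨0, hn⟩
  have hψ : moduleHom hE n q v = v := funext fun _ => hfix
  have hc : Commute (SemidirectProduct.inl v : Wit hE n) (SemidirectProduct.inr q) := by
    refine SemidirectProduct.ext ?_ ?_ <;> simp [hψ]
  refine ⟨SemidirectProduct.inl v * SemidirectProduct.inr q, ?_⟩
  rw [hc.orderOf_mul_eq_mul_orderOf_of_coprime] <;>
    rw [orderOf_injective _ SemidirectProduct.inl_injective,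
      orderOf_injective _ SemidirectProduct.inr_injective, hv, hq]
  exact Nat.coprime_two_left.2 hk

/-- an element of order five fixed by the field automorphisms, as a matrix -/
def five : Matrix (Fin 4) (Fin 4) (ZMod 2) := !![0, 0, 0, 1; 0, 0, 1, 0; 0, 1, 0, 1; 1, 0, 1, 1]

/-- the form, as a matrix -/
def formTwo : Matrix (Fin 4) (Fin 4) (ZMod 2) := !![0, 0, 0, 1; 0, 0, 1, 0; 0, 1, 0, 0; 1, 0, 0, 0]

theorem five_pow : five ^ 5 = 1 := by decide +kernel

theorem five_form : five * formTwo * fiveᵀ = formTwo := by decide +kernel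

theorem exists_order_six {n : ℕ} : ∃ g : Wit hE n, orderOf g = 6 := by
  have hH := hE.hyp
  have := Fact.mk Nat.prime_two
  have hw : orderOf (hH.w) = 2 := orderOf_eq_prime (by rw [sq]; exact hH.w_mul_self) fun h => by
    have := congrArg (fun z => z • oInf F 1) h
    simp only [hH.w_smul_inf, one_smul] at this
    exact oPt_ne_oInf _ _ this
  have hc : Commute (SemidirectProduct.inl hH.w : AutSz hE) (SemidirectProduct.inr (gen F)) := by
    refine SemidirectProduct.ext ?_ ?_
    · simp only [SemidirectProduct.mul_left, SemidirectProduct.left_inl, SemidirectProduct.right_inl,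
        SemidirectProduct.left_inr, SemidirectProduct.right_inr, map_one, one_mul, mul_one,
        MulAut.one_apply]
      exact (hH.fieldAut_w (frob F)).symm
    · simp
  refine ⟨SemidirectProduct.inr (SemidirectProduct.inl hH.w * SemidirectProduct.inr (gen F)), ?_⟩
  have hg : orderOf (gen F) = 3 := by rw [← Subgroup.orderOf_coe]; exact hE.order_frob
  rw [orderOf_injective _ SemidirectProduct.inr_injective,
    hc.orderOf_mul_eq_mul_orderOf_of_coprime] <;>
    rw [orderOf_injective _ SemidirectProduct.inl_injective,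
      orderOf_injective _ SemidirectProduct.inr_injective, hw, hg]
  norm_num

/-- the element of order five -/
def fiveEl : Cfsg.Sz F 1 := hE.hyp.w * hE.hyp.u 0 1

theorem mat_fiveEl : mat F 1 (fiveEl hE) = five.map (ZMod.castHom dvd_rfl F) := by
  have e : mat F 1 (fiveEl hE) = Cfsg.suzukiForm F * uMat 1 0 1 := rfl
  rw [e]
  ext i j
  fin_cases i <;> fin_cases j <;>
    simp [five, Cfsg.suzukiForm, uMat, fz, th, Matrix.mul_apply, Fin.sum_univ_four]

theorem tw_fiveEl (c : F ≃+* F) : tw c (fiveEl hE) = five.map (ZMod.castHom dvd_rfl F) := by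
  rw [tw_apply, mat_fiveEl]
  ext i j
  exact DFunLike.congr_fun (RingHom.ext_zmod ((c : F →+* F).comp (ZMod.castHom dvd_rfl F))
    (ZMod.castHom dvd_rfl F)) (five i j)

theorem orderOf_fiveEl : orderOf (fiveEl hE) = 5 := by
  have := Fact.mk (show Nat.Prime 5 by norm_num)
  have hinj : Function.Injective (ZMod.castHom dvd_rfl F : ZMod 2 →+* F) :=
    (ZMod.castHom dvd_rfl F : ZMod 2 →+* F).injective
  refine orderOf_eq_prime (mat_injective ?_) fun h => ?_
  · rw [map_pow, mat_fiveEl, map_one]
    show ((ZMod.castHom dvd_rfl F : ZMod 2 →+* F).mapMatrix five) ^ 5 = 1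
    rw [← map_pow, five_pow, map_one]
  · have e := congrArg (fun M : Matrix (Fin 4) (Fin 4) F => M 0 0)
      ((mat_fiveEl hE).symm.trans (by rw [h, map_one]))
    simp [five] at e

theorem gen_fix_fiveEl : galHom hE (gen F) (fiveEl hE) = fiveEl hE := by
  apply mat_injective
  rw [mat_fiveEl, ← tw_fiveEl hE (frob F)]
  rfl

theorem exists_order_fifteen {n : ℕ} : ∃ g : Wit hE n, orderOf g = 15 := by
  have hc : Commute (SemidirectProduct.inl (fiveEl hE) : AutSz hE)
      (SemidirectProduct.inr (gen F)) := by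
    refine SemidirectProduct.ext ?_ ?_
    · simp [gen_fix_fiveEl]
    · simp
  refine ⟨SemidirectProduct.inr (SemidirectProduct.inl (fiveEl hE) * SemidirectProduct.inr (gen F)), ?_⟩
  have hg : orderOf (gen F) = 3 := by rw [← Subgroup.orderOf_coe]; exact hE.order_frob
  rw [orderOf_injective _ SemidirectProduct.inr_injective,
    hc.orderOf_mul_eq_mul_orderOf_of_coprime] <;>
    rw [orderOf_injective _ SemidirectProduct.inl_injective,
      orderOf_injective _ SemidirectProduct.inr_injective, orderOf_fiveEl, hg]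
  norm_num

theorem exists_order_ten {n : ℕ} (hn : 0 < n) : ∃ g : Wit hE n, orderOf g = 10 := by
  let J : Matrix (Fin 4) (Fin 4) F := formTwo.map (ZMod.castHom dvd_rfl F)
  refine order_mul_of_fixed hE hn (q := SemidirectProduct.inl (fiveEl hE)) (X := fun _ => J) ?_ ?_
    ((orderOf_injective _ SemidirectProduct.inl_injective _).trans (orderOf_fiveEl hE)) (by decide)
  · intro h
    have := congrFun (congrFun (congrFun h (1 : Gal8 F)) 0) 3
    simp [J, formTwo] at this
  · funext c
    rw [act_apply, SemidirectProduct.left_inl, tw_fiveEl, tw_fiveEl]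
    show (ZMod.castHom dvd_rfl F).mapMatrix five * (ZMod.castHom dvd_rfl F).mapMatrix formTwo *
      ((ZMod.castHom dvd_rfl F).mapMatrix five)ᵀ = (ZMod.castHom dvd_rfl F).mapMatrix formTwo
    conv_rhs => rw [← five_form, map_mul, map_mul]
    rw [RingHom.mapMatrix_apply, RingHom.mapMatrix_apply, RingHom.mapMatrix_apply,
      Matrix.transpose_map]

theorem exists_order_fourteen {n : ℕ} (hn : 0 < n) : ∃ g : Wit hE n, orderOf g = 14 := by
  classical
  have hH := hE.hyp
  obtain ⟨t, ht⟩ := hH.exists_ne_one_H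
  have := Fact.mk (show Nat.Prime 7 by norm_num)
  have h7 : t ^ 7 = 1 := by
    have := orderOf_dvd_natCard t
    rw [hH.card_units] at this
    exact orderOf_dvd_iff_pow_eq_one.1 (by simpa using this)
  have hd : orderOf (hH.d t) = 7 := by
    refine orderOf_eq_prime ?_ (hH.d_ne_one ht)
    show hH.dG t ^ 7 = 1
    rw [← map_pow, h7, map_one]
  let X : Mod F := Pi.single 1 (Matrix.single 0 1 1)
  refine order_mul_of_fixed hE hn (q := SemidirectProduct.inl (hH.d t)) (X := X) ?_ ?_
    ((orderOf_injective _ SemidirectProduct.inl_injective _).trans hd) (by decide)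
  · intro h
    have := congrFun (congrFun (congrFun h (1 : Gal8 F)) 0) 1
    simp [X] at this
  · funext c
    rw [act_apply, SemidirectProduct.right_inl, mul_one, SemidirectProduct.left_inl]
    by_cases hc : c = 1
    · subst hc
      have e1 : tw ((1 : Gal8 F) : F ≃+* F) (hH.d t) = dMat 1 t := by
        ext i j; rfl
      have e2 : tw (((1 : Gal8 F) * gen F : Gal8 F) : F ≃+* F) (hH.d t) =
          (dMat 1 t).map (frob F) := by
        rw [one_mul]; rfl
      rw [e1, e2]
      have h7' : (t : F) ^ 7 = 1 := by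
        rw [← Units.val_pow_eq_pow_val, h7, Units.val_one]
      show dMat 1 t * X 1 * ((dMat 1 t).map (frob F))ᵀ = X 1
      simp only [X, Pi.single_eq_same, dMat]
      rw [Matrix.diagonal_map (map_zero _), Matrix.diagonal_transpose]
      ext i j
      rw [Matrix.mul_diagonal, Matrix.diagonal_mul]
      fin_cases i <;> fin_cases j <;> simp [th, frob_apply]
      calc (t : F) * (t : F) ^ 4 * (t : F) ^ 2 = (t : F) ^ 7 := by ring
        _ = 1 := h7'
    · simp [X, Pi.single_eq_of_ne hc]

end CfsgLib.PrimeGraphSp63
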